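import Cfsg.Agent.Lib.Helper58.G2Syl.Defs
import Cfsg.Agent.Lib.Helper64.G2Syl.A4
import Cfsg.Agent.Lib.Helper65.G2Syl.A3

set_option autoImplicit false

namespace Cfsg.Agent.Lib.Helper2.G2Syl

open Cfsg Cfsg.Lie Cfsg.Agent.Lib.Helper58.WrSyl Cfsg.Agent.Lib.Helper58.G2Syl
open Matrix.GeneralLinearGroup (scalar det)

/-- [A7] -/
theorem card_autO (F : Type*) [Field F] [Fintype F] :
    Nat.card (AutO F) = Nat.card (Idem F) * Nat.card (StabE F) := by
  have h1 := MulAction.index_stabilizer (AutO F) (e1 F)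
  have h2 := Subgroup.card_mul_index (MulAction.stabilizer (AutO F) (e1 F))
  have h3 : MulAction.orbit (AutO F) (e1 F) = Idem F := by
    ext x
    constructor
    · rintro ⟨f, rfl⟩
      exact Cfsg.Agent.Lib.Helper64.G2Syl.autO_e1_mem f.1 f.2
    · intro hx
      obtain ⟨f, hf, hfx⟩ := Cfsg.Agent.Lib.Helper65.G2Syl.autO_trans x hx
      exact ⟨⟨f, hf⟩, hfx⟩
  have h4 : Nat.card (MulAction.stabilizer (AutO F) (e1 F)) = Nat.card (StabE F) := by
    apply Nat.card_congr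
    exact
      { toFun := fun f => ⟨f.1.1, f.1.2, f.2⟩
        invFun := fun g => ⟨⟨g.1, g.2.1⟩, g.2.2⟩
        left_inv := fun _ => rfl
        right_inv := fun _ => rfl }
  rw [← h2, h1, h3, h4, Nat.card_coe_set_eq, mul_comm]

end Cfsg.Agent.Lib.Helper2.G2Syl
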