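import Cfsg.Agent.Lib.Helper58.G2Syl.Defs

set_option autoImplicit false

namespace Cfsg.Agent.Lib.Helper2.G2Syl

open Cfsg Cfsg.Lie Cfsg.Agent.Lib.Helper58.WrSyl Cfsg.Agent.Lib.Helper58.G2Syl
open Matrix.GeneralLinearGroup (scalar det)

/-- [N2] -/
theorem val_arith {q : ℕ} (hq : Odd q) (h1 : 1 < q) :
    (q ^ 6 + q ^ 3).factorization 2 + (q ^ 3 - 1).factorization 2 = (q ^ 2 - 1).factorization 2 := by
  obtain ⟨a, ha⟩ : ∃ a, q ^ 3 = a + 1 := ⟨q ^ 3 - 1, by have : 0 < q ^ 3 := by positivity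
                                                        omega⟩
  obtain ⟨b, hb⟩ : ∃ b, q ^ 2 = b + 1 := ⟨q ^ 2 - 1, by have : 0 < q ^ 2 := by positivity
                                                        omega⟩
  have ha0 : a ≠ 0 := by
    rintro rfl
    have : 1 < q ^ 3 := Nat.one_lt_pow (by norm_num) h1
    omega
  have hb0 : b ≠ 0 := by
    rintro rfl
    have : 1 < q ^ 2 := Nat.one_lt_pow (by norm_num) h1
    omega
  have e1 : q ^ 3 - 1 = a := by omega
  have e2 : q ^ 2 - 1 = b := by omega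
  rw [e1, e2]
  have key : (q ^ 6 + q ^ 3) * a = q ^ 3 * (q ^ 4 + q ^ 2 + 1) * b := by
    have h6 : q ^ 6 = (a + 1) ^ 2 := by rw [← ha]; ring
    have hz : ((q ^ 6 + q ^ 3) * a : ℤ) = q ^ 3 * (q ^ 4 + q ^ 2 + 1) * b := by
      have ha' : (a : ℤ) = q ^ 3 - 1 := by
        have : ((q ^ 3 : ℕ) : ℤ) = ((a + 1 : ℕ) : ℤ) := by rw [ha]
        push_cast at this
        linarith
      have hb' : (b : ℤ) = q ^ 2 - 1 := by
        have : ((q ^ 2 : ℕ) : ℤ) = ((b + 1 : ℕ) : ℤ) := by rw [hb]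
        push_cast at this
        linarith
      rw [ha', hb']; ring
    exact_mod_cast hz
  have hq0 : q ≠ 0 := by omega
  have o1 : ¬ 2 ∣ q ^ 3 := (hq.pow).not_two_dvd_nat
  have o2 : ¬ 2 ∣ q ^ 4 + q ^ 2 + 1 := (((hq.pow).add_odd (hq.pow)).add_one).not_two_dvd_nat
  have n1 : q ^ 6 + q ^ 3 ≠ 0 := by positivity
  have n2 : q ^ 3 ≠ 0 := by positivity
  have n3 : q ^ 4 + q ^ 2 + 1 ≠ 0 := by positivity
  have h := congrArg (fun n => n.factorization 2) key
  rw [Nat.factorization_mul n1 ha0, Nat.factorization_mul (mul_ne_zero n2 n3) hb0,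
    Nat.factorization_mul n2 n3] at h
  simp only [Finsupp.coe_add, Pi.add_apply] at h
  rw [Nat.factorization_eq_zero_of_not_dvd o1, Nat.factorization_eq_zero_of_not_dvd o2] at h
  omega

end Cfsg.Agent.Lib.Helper2.G2Syl
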